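import Cfsg.Agent.H777.ElimDef
import Cfsg.Agent.H680.CritGExc
import Cfsg.Agent.OrdDiv.Main
import Cfsg.Agent.ONan.PairCoord

/-!
# Exceptional groups of Lie type with 3-part of the order `3 ^ 10` (helper984, for helper777's S5229, S5231)

`row_exc` : an exceptional group in characteristic different from 3 satisfies `H777.Elim.Row`.
-/

set_option autoImplicit false

namespace Cfsg.Agent.H984.ThreeExc

open Subgroup Cfsg Cfsg.Lie
open Cfsg.Agent.H777.Elim (Vn Big Row)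
open Cfsg.Agent.H356.CommSup (comm_sup card_sup)
open Cfsg.Agent.H356.SLTorus (exists_order eq_one_of_center)

universe u

/-! ### commuting `SL₂` -/

section Generic

variable {G : Type*} [Group G]

/-- a 3-element of `SL₂` whose image commutes with the whole image is trivial -/
theorem eq_one_of_comm {F : Type*} [Field F] (f : Matrix.SpecialLinearGroup (Fin 2) F →* G)
    (hk : ∀ g, f g = 1 → g = 1 ∨ g = -1) {y : Matrix.SpecialLinearGroup (Fin 2) F} {n : ℕ} (hy : y ^ 3 ^ n = 1)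
    (hc : ∀ g, f y * f g = f g * f y) : y = 1 := by
  refine eq_one_of_center (mem_center_iff.2 fun g => ?_) hy
  have h1 : f (y * g * y⁻¹ * g⁻¹) = 1 := by
    rw [map_mul, map_mul, map_mul, hc g, map_inv, map_inv]; group
  rcases hk _ h1 with h | h
  · have h2 : y * g * y⁻¹ * g⁻¹ * (g * y) = 1 * (g * y) := by rw [h]
    have h3 : y * g * y⁻¹ * g⁻¹ * (g * y) = y * g := by group
    rw [← h3, h2, one_mul]
  · have hyg : y * g = -1 * (g * y) := by
      have h2 : y * g * y⁻¹ * g⁻¹ * (g * y) = -1 * (g * y) := by rw [h]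
      have h3 : y * g * y⁻¹ * g⁻¹ * (g * y) = y * g := by group
      rw [← h3, h2]
    have hcz : ∀ x : Matrix.SpecialLinearGroup (Fin 2) F, x * -1 = -1 * x := by
      intro x
      rw [mul_neg, neg_mul, mul_one, one_mul]
    have hpow : ∀ k : ℕ, y ^ k * g = (-1) ^ k * (g * y ^ k) := by
      intro k
      induction k with
      | zero => simp
      | succ k ih =>
        rw [pow_succ', mul_assoc, ih, ← mul_assoc, ← mul_assoc, ← (Commute.pow_left (hcz y).symm k).eq,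
          mul_assoc _ y g, hyg, ← mul_assoc, ← pow_succ, mul_assoc, mul_assoc, ← pow_succ']
    have h4 := hpow (3 ^ n)
    rw [hy, one_mul, mul_one] at h4
    have h5 : (-1 : Matrix.SpecialLinearGroup (Fin 2) F) ^ 3 ^ n = 1 := by
      have := congrArg (· * g⁻¹) h4
      simpa using this.symm
    have hodd : Odd (3 ^ n) := Odd.pow (by decide)
    rw [hodd.neg_one_pow] at h5
    rw [hyg, h5, one_mul]

theorem exists_abelian {F : Type*} [Field F] [Finite F] (h3 : (3 : F) ≠ 0) {m : ℕ}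
    (hm : 3 ^ m ∣ Nat.card F ^ 2 - 1) : ∀ {n : ℕ} (f : Fin n → Matrix.SpecialLinearGroup (Fin 2) F →* G)
    (_ : ∀ i g, f i g = 1 → g = 1 ∨ g = -1) (_ : ∀ i j, i ≠ j → ∀ a b, f i a * f j b = f j b * f i a),
    ∃ A : Subgroup G, (∀ x ∈ A, ∀ y ∈ A, x * y = y * x) ∧ Nat.card A = 3 ^ (m * n) ∧ A ≤ ⨆ i, (f i).range
  | 0, _, _, _ => ⟨⊥, by
      intro x hx y hy
      rw [mem_bot] at hx hy
      rw [hx, hy], by simp, bot_le⟩
  | n + 1, f, hk, hc => by
    obtain ⟨A, hA, hcard, hle⟩ := exists_abelian h3 hm (fun i : Fin n => f i.castSucc)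
      (fun i => hk i.castSucc) (fun i j hij => hc _ _ (fun h => hij (Fin.castSucc_injective n h)))
    obtain ⟨y, hy⟩ := exists_order h3 hm
    have hyn : y ^ 3 ^ m = 1 := by rw [← hy, pow_orderOf_eq_one]
    -- elements of `A` commute with the last `SL₂`
    have hAc : ∀ a ∈ A, ∀ g, a * f (Fin.last n) g = f (Fin.last n) g * a := by
      have h1 : (⨆ i : Fin n, (f i.castSucc).range) ≤ centralizer ((f (Fin.last n)).range : Set G) := by
        refine iSup_le fun i => ?_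
        rintro _ ⟨a, rfl⟩
        rw [mem_centralizer_iff]
        rintro _ ⟨b, rfl⟩
        exact (hc _ _ (Fin.castSucc_lt_last i).ne a b).symm
      intro a ha g
      exact (mem_centralizer_iff.1 (h1 (hle ha)) _ ⟨g, rfl⟩).symm
    have hlast : ∀ k : ℤ, (∀ g, f (Fin.last n) (y ^ k) * f (Fin.last n) g = f (Fin.last n) g * f (Fin.last n) (y ^ k)) →
        y ^ k = 1 := by
      intro k hk'
      refine eq_one_of_comm (f (Fin.last n)) (hk _) (n := m) ?_ hk'
      rw [← zpow_natCast, ← zpow_mul, mul_comm, zpow_mul, zpow_natCast, hyn, one_zpow]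
    have hord : orderOf (f (Fin.last n) y) = 3 ^ m := by
      apply Nat.dvd_antisymm
      · rw [← hy]
        exact orderOf_map_dvd _ _
      · rw [← hy]
        apply orderOf_dvd_of_pow_eq_one
        have h1 := hlast (orderOf (f (Fin.last n) y)) (by
          intro g
          rw [map_zpow, zpow_natCast, pow_orderOf_eq_one, one_mul, mul_one])
        rwa [zpow_natCast] at h1
    have hcomm : ∀ a ∈ A, ∀ b ∈ zpowers (f (Fin.last n) y), a * b = b * a := by
      intro a ha b hb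
      obtain ⟨k, rfl⟩ := mem_zpowers_iff.1 hb
      rw [← map_zpow]
      exact hAc a ha _
    have hd : Disjoint A (zpowers (f (Fin.last n) y)) := by
      rw [disjoint_def]
      intro a ha hb
      obtain ⟨k, rfl⟩ := mem_zpowers_iff.1 hb
      rw [← map_zpow] at ha ⊢
      rw [hlast k fun g => hAc _ ha g, map_one]
    refine ⟨A ⊔ zpowers (f (Fin.last n) y), comm_sup hA ?_ hcomm, ?_, sup_le (hle.trans ?_) ?_⟩
    · intro a ha b hb
      obtain ⟨i, rfl⟩ := mem_zpowers_iff.1 ha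
      obtain ⟨j, rfl⟩ := mem_zpowers_iff.1 hb
      rw [← zpow_add, ← zpow_add, add_comm]
    · rw [card_sup hcomm hd, hcard, Nat.card_zpowers, hord, ← pow_add, Nat.mul_succ]
    · exact iSup_le fun i => le_iSup (fun j => (f j).range) i.castSucc
    · rw [zpowers_le]
      exact le_iSup (fun j => (f j).range) (Fin.last n) ⟨y, rfl⟩

theorem big_of_homs {F : Type*} [Field F] [Finite F] (h3 : (3 : F) ≠ 0)
    (hm : 3 ^ 2 ∣ Nat.card F ^ 2 - 1) {n : ℕ} (hn : 3 ≤ n) (f : Fin n → Matrix.SpecialLinearGroup (Fin 2) F →* G)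
    (hk : ∀ i g, f i g = 1 → g = 1 ∨ g = -1) (hc : ∀ i j, i ≠ j → ∀ a b, f i a * f j b = f j b * f i a) :
    Big G := by
  obtain ⟨A, hA, hcard, -⟩ := exists_abelian h3 hm f hk hc
  have : Fact (Nat.Prime 3) := ⟨Nat.prime_three⟩
  refine Or.inl ⟨A, IsPGroup.of_card hcard, hA, ?_⟩
  rw [hcard]
  exact Nat.pow_le_pow_right (by norm_num) (by omega)

end Generic

/-! ### arithmetic -/

section Num

instance fact3 : Fact (Nat.Prime 3) := ⟨Nat.prime_three⟩

theorem val_of_Vn {K : Type*} [Group K] [Finite K] {n : ℕ} (h : Vn n K) : padicValNat 3 (Nat.card K) = n := by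
  have h0 : Nat.card K ≠ 0 := Nat.card_pos.ne'
  have h1 := (padicValNat_dvd_iff_le h0).1 h.1
  have h2 : ¬ (n + 1 ≤ padicValNat 3 (Nat.card K)) := fun h' => h.2 ((padicValNat_dvd_iff_le h0).2 h')
  omega

variable {q : ℕ}

theorem three_dvd (h3 : ¬ 3 ∣ q) : 3 ∣ q ^ 2 - 1 := by
  obtain ⟨k, hk⟩ := Cfsg.Agent.H680.CritD4.three_dvd h3
  exact ⟨k, hk⟩

theorem val_even (hq : 1 < q) (h3 : ¬ 3 ∣ q) {k : ℕ} (hk : k ≠ 0) :
    padicValNat 3 (q ^ (2 * k) - 1) = padicValNat 3 (q ^ 2 - 1) + padicValNat 3 k := by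
  have h := padicValNat.pow_sub_pow (p := 3) (by decide) (x := q ^ 2) (y := 1)
    (Nat.one_lt_pow two_ne_zero hq) (three_dvd h3) (fun h => h3 (Nat.prime_three.dvd_of_dvd_pow h)) hk
  rwa [one_pow, ← pow_mul] at h

theorem ne_zero {k : ℕ} (hq : 1 < q) (hk : k ≠ 0) : q ^ k - 1 ≠ 0 := by
  have := Nat.one_lt_pow hk hq
  omega

theorem val_pow (h3 : ¬ 3 ∣ q) (k : ℕ) : padicValNat 3 (q ^ k) = 0 :=
  padicValNat.eq_zero_of_not_dvd fun h => h3 (Nat.prime_three.dvd_of_dvd_pow h)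

theorem val_1 : padicValNat 3 1 = 0 := padicValNat_one_right 3
theorem val_2 : padicValNat 3 2 = 0 := padicValNat.eq_zero_of_not_dvd (by decide)
theorem val_3 : padicValNat 3 3 = 1 := padicValNat.self (by norm_num)
theorem val_4 : padicValNat 3 4 = 0 := padicValNat.eq_zero_of_not_dvd (by decide)
theorem val_5 : padicValNat 3 5 = 0 := padicValNat.eq_zero_of_not_dvd (by decide)
theorem val_6 : padicValNat 3 6 = 1 := by
  rw [show 6 = 3 * 2 by norm_num, padicValNat.mul (by norm_num) (by norm_num), val_3, val_2]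
theorem val_7 : padicValNat 3 7 = 0 := padicValNat.eq_zero_of_not_dvd (by decide)
theorem val_9 : padicValNat 3 9 = 2 := by
  rw [show 9 = 3 * 3 by norm_num, padicValNat.mul (by norm_num) (by norm_num), val_3]
theorem val_10 : padicValNat 3 10 = 0 := padicValNat.eq_zero_of_not_dvd (by decide)
theorem val_12 : padicValNat 3 12 = 1 := by
  rw [show 12 = 3 * 4 by norm_num, padicValNat.mul (by norm_num) (by norm_num), val_3, val_4]
theorem val_15 : padicValNat 3 15 = 1 := by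
  rw [show 15 = 3 * 5 by norm_num, padicValNat.mul (by norm_num) (by norm_num), val_3, val_5]

theorem one_le_val (hq : 1 < q) (h3 : ¬ 3 ∣ q) : 1 ≤ padicValNat 3 (q ^ 2 - 1) :=
  one_le_padicValNat_of_dvd (ne_zero hq two_ne_zero) (three_dvd h3)

/-- `q ≡ 1 mod 3` -/
theorem val_one (hq : 1 < q) (h1 : q % 3 = 1) {k : ℕ} (hk : k ≠ 0) :
    padicValNat 3 (q ^ k - 1) = padicValNat 3 (q ^ 2 - 1) + padicValNat 3 k := by
  have h3 : ¬ 3 ∣ q := by omega
  have hd : 3 ∣ q - 1 := by omega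
  have h := padicValNat.pow_sub_pow (p := 3) (by decide) (x := q) (y := 1) hq hd h3 hk
  have h' := padicValNat.pow_sub_pow (p := 3) (by decide) (x := q) (y := 1) hq hd h3 (two_ne_zero)
  rw [one_pow] at h h'
  rw [h, h', val_2, add_zero]

/-- `q ≡ 2 mod 3` -/
theorem val_two (hq : 1 < q) (h2 : q % 3 = 2) {k : ℕ} (hk : Odd k) :
    padicValNat 3 (q ^ k + 1) = padicValNat 3 (q ^ 2 - 1) + padicValNat 3 k := by
  have h3 : ¬ 3 ∣ q := by omega
  have hd : 3 ∣ q + 1 := by omega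
  have h := padicValNat.pow_add_pow (p := 3) (by decide) (x := q) (y := 1) hd h3 hk
  rw [one_pow] at h
  have h' : padicValNat 3 (q ^ 2 - 1) = padicValNat 3 (q + 1) := by
    have e : q ^ 2 - 1 = (q + 1) * (q - 1) := by
      have := Nat.sq_sub_sq q 1
      rwa [one_pow] at this
    rw [e, padicValNat.mul (by omega) (by omega), padicValNat.eq_zero_of_not_dvd (n := q - 1) (by omega), add_zero]
  rw [h, h']

theorem pow_mod_two (h2 : q % 3 = 2) {k : ℕ} (hk : Odd k) : q ^ k % 3 = 2 := by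
  obtain ⟨j, rfl⟩ := hk
  rw [pow_succ, pow_mul, Nat.mul_mod, Nat.pow_mod, Nat.pow_mod q 2, h2]
  norm_num

theorem pow_mod_one (h1 : q % 3 = 1) (k : ℕ) : q ^ k % 3 = 1 := by
  rw [Nat.pow_mod, h1, one_pow, Nat.one_mod]

/-- `q ≡ 2 mod 3`, `k` odd: `q ^ k - 1` is prime to 3 -/
theorem val_sub_zero (h2 : q % 3 = 2) {k : ℕ} (hk : Odd k) : padicValNat 3 (q ^ k - 1) = 0 := by
  apply padicValNat.eq_zero_of_not_dvd
  have := pow_mod_two h2 hk
  omega

/-- `q ≡ 1 mod 3`: `q ^ k + 1` is prime to 3 -/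
theorem val_add_zero (h1 : q % 3 = 1) (k : ℕ) : padicValNat 3 (q ^ k + 1) = 0 := by
  apply padicValNat.eq_zero_of_not_dvd
  have := pow_mod_one h1 k
  omega

/-- the 3-part of `n` is `3 ^ k` -/
def HV (n k : ℕ) : Prop := n ≠ 0 ∧ padicValNat 3 n = k

theorem HV.mul {n m k l : ℕ} (h : HV n k) (h' : HV m l) : HV (n * m) (k + l) :=
  ⟨mul_ne_zero h.1 h'.1, by rw [padicValNat.mul h.1 h'.1, h.2, h'.2]⟩

theorem hv_pow (hq : 1 < q) (h3 : ¬ 3 ∣ q) (k : ℕ) : HV (q ^ k) 0 := ⟨by positivity, val_pow h3 k⟩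

theorem hv_even (hq : 1 < q) (h3 : ¬ 3 ∣ q) (k n l : ℕ) (hk : k ≠ 0) (hn : n = 2 * k) (hl : padicValNat 3 k = l) :
    HV (q ^ n - 1) (padicValNat 3 (q ^ 2 - 1) + l) := by
  subst hn
  subst hl
  exact ⟨ne_zero hq (by omega), val_even hq h3 hk⟩

theorem dvd_of_val (hq : 1 < q) {k : ℕ} (h : k ≤ padicValNat 3 (q ^ 2 - 1)) : 3 ^ k ∣ q ^ 2 - 1 :=
  (padicValNat_dvd_iff_le (ne_zero hq two_ne_zero)).2 h

end Num

/-! ### the groups -/

section Groups

open Cfsg.Agent.ChevalleyStructure Cfsg.Agent.ChevalleyStructure.Elts Cfsg.Agent.H92.ExcSL2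

variable {F : Type*} [Field F] [Fintype F]

theorem not_dvd_card (h3 : (3 : F) ≠ 0) : ¬ 3 ∣ Fintype.card F := by
  intro h
  obtain ⟨p, hp⟩ := CharP.exists F
  obtain ⟨k, hpr, hk⟩ := FiniteField.card F p
  rw [hk] at h
  have h4 := (Nat.prime_dvd_prime_iff_eq Nat.prime_three hpr).1 (Nat.prime_three.dvd_of_dvd_pow h)
  apply h3
  have h5 := CharP.cast_eq_zero F p
  rw [← h4] at h5
  exact_mod_cast h5

theorem big_chev {D : ChevalleyDatum} (hD : InList D) (h3 : (3 : F) ≠ 0) (hm : 3 ^ 2 ∣ Nat.card F ^ 2 - 1)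
    (l : Fin 4 → ℕ) (hl : ∀ i, l i < D.nroots) (ho : ∀ i j, i ≠ j → Orth4 D (l i) (l j) = true) :
    Big ↥(D.group F) :=
  big_of_homs h3 hm (by norm_num) (fun i => ph hD (hl i)) (fun i _ h => ph_eq_one hD (hl i) h)
    fun i j hij a b => (ph_commute hD (hl i) (hl j) (ho i j hij) a b).eq

theorem row_G2 (h3 : (3 : F) ≠ 0) : Row ↥(chevG2.group F) := by
  intro hV
  exfalso
  have hv := val_of_Vn hV
  have hq : 1 < Fintype.card F := Fintype.one_lt_card
  have hd := not_dvd_card h3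
  rw [Cfsg.Agent.S1059.result (F := F) rfl] at hv
  have h := ((hv_pow hq hd 6).mul (hv_even hq hd 1 2 0 one_ne_zero rfl val_1)).mul
    (hv_even hq hd 3 6 1 (by norm_num) rfl val_3)
  have := h.2
  omega

theorem row_F4 (h3 : (3 : F) ≠ 0) : Row ↥(chevF4.group F) := by
  intro hV
  have hv := val_of_Vn hV
  have hq : 1 < Fintype.card F := Fintype.one_lt_card
  have hd := not_dvd_card h3
  rw [Cfsg.Agent.S1062.result (F := F) rfl] at hv
  have h := ((((hv_pow hq hd 24).mul (hv_even hq hd 1 2 0 one_ne_zero rfl val_1)).mul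
    (hv_even hq hd 3 6 1 (by norm_num) rfl val_3)).mul (hv_even hq hd 4 8 0 (by norm_num) rfl val_4)).mul
    (hv_even hq hd 6 12 1 (by norm_num) rfl val_6)
  have h2 := h.2
  refine big_chev (by simp) h3 ?_ ![26, 31, 42, 46] (by decide +kernel) (by decide +kernel)
  rw [Nat.card_eq_fintype_card]
  exact dvd_of_val hq (by omega)

theorem gcd_three {n : ℕ} : Nat.gcd 3 n = if n % 3 = 0 then 3 else 1 := by
  split_ifs with h
  · exact Nat.gcd_eq_left (Nat.dvd_of_mod_eq_zero h)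
  · exact (Nat.Prime.coprime_iff_not_dvd Nat.prime_three).2 fun h' => h (Nat.mod_eq_zero_of_dvd h')

theorem row_E6 (h3 : (3 : F) ≠ 0) : Row ↥(chevE6.group F) := by
  intro hV
  have hv := val_of_Vn hV
  have hq : 1 < Fintype.card F := Fintype.one_lt_card
  have hd := not_dvd_card h3
  have hN : HV (Nat.card ↥(chevE6.group F)) 10 := ⟨Nat.card_pos.ne', hv⟩
  have hc := Cfsg.Agent.S1063.result (F := F) rfl
  have hm : Fintype.card F % 3 = 1 ∨ Fintype.card F % 3 = 2 := by omega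
  rcases hm with hm | hm
  · exfalso
    rw [gcd_three, if_pos (by omega)] at hc
    have h1 : HV (3 * Nat.card ↥(chevE6.group F)) (1 + 10) := HV.mul ⟨by norm_num, val_3⟩ hN
    have h := ((((((hv_pow hq hd 36).mul (hv_even hq hd 1 2 0 one_ne_zero rfl val_1)).mul
      (⟨ne_zero hq (by norm_num), by rw [val_one hq hm (by norm_num), val_5]⟩ :
        HV (Fintype.card F ^ 5 - 1) (padicValNat 3 (Fintype.card F ^ 2 - 1) + 0))).mul
      (hv_even hq hd 3 6 1 (by norm_num) rfl val_3)).mul (hv_even hq hd 4 8 0 (by norm_num) rfl val_4)).mul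
      (⟨ne_zero hq (by norm_num), by rw [val_one hq hm (by norm_num), val_9]⟩ :
        HV (Fintype.card F ^ 9 - 1) (padicValNat 3 (Fintype.card F ^ 2 - 1) + 2))).mul
      (hv_even hq hd 6 12 1 (by norm_num) rfl val_6)
    rw [hc] at h1
    have h2 := h.2
    have h3 := h1.2
    omega
  · rw [gcd_three, if_neg (by omega), one_mul] at hc
    have h1 := hN
    have h := ((((((hv_pow hq hd 36).mul (hv_even hq hd 1 2 0 one_ne_zero rfl val_1)).mul
      (⟨ne_zero hq (by norm_num), val_sub_zero hm (by decide)⟩ : HV (Fintype.card F ^ 5 - 1) 0)).mul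
      (hv_even hq hd 3 6 1 (by norm_num) rfl val_3)).mul (hv_even hq hd 4 8 0 (by norm_num) rfl val_4)).mul
      (⟨ne_zero hq (by norm_num), val_sub_zero hm (by decide)⟩ : HV (Fintype.card F ^ 9 - 1) 0)).mul
      (hv_even hq hd 6 12 1 (by norm_num) rfl val_6)
    rw [hc] at h1
    have h2 := h.2
    have h3' := h1.2
    refine big_chev (by simp) h3 ?_ ![39, 44, 60, 71] (by decide +kernel) (by decide +kernel)
    rw [Nat.card_eq_fintype_card]
    exact dvd_of_val hq (by omega)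

theorem row_E7 (h3 : (3 : F) ≠ 0) : Row ↥(chevE7.group F) := by
  intro hV
  exfalso
  have hv := val_of_Vn hV
  have hq : 1 < Fintype.card F := Fintype.one_lt_card
  have hd := not_dvd_card h3
  have hN : HV (Nat.card ↥(chevE7.group F)) 10 := ⟨Nat.card_pos.ne', hv⟩
  have hc := Cfsg.Agent.S1064.result (F := F) rfl
  have hg0 : HV (Nat.gcd 2 (Fintype.card F - 1)) 0 := by
    have h2 : Nat.gcd 2 (Fintype.card F - 1) = 1 ∨ Nat.gcd 2 (Fintype.card F - 1) = 2 :=
      (Nat.dvd_prime Nat.prime_two).1 (Nat.gcd_dvd_left _ _)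
    rcases h2 with h2 | h2
    · rw [h2]; exact ⟨one_ne_zero, val_1⟩
    · rw [h2]; exact ⟨two_ne_zero, val_2⟩
  have h := (((((((hv_pow hq hd 63).mul (hv_even hq hd 1 2 0 one_ne_zero rfl val_1)).mul
    (hv_even hq hd 3 6 1 (by norm_num) rfl val_3)).mul (hv_even hq hd 4 8 0 (by norm_num) rfl val_4)).mul
    (hv_even hq hd 5 10 0 (by norm_num) rfl val_5)).mul (hv_even hq hd 6 12 1 (by norm_num) rfl val_6)).mul
    (hv_even hq hd 7 14 0 (by norm_num) rfl val_7)).mul (hv_even hq hd 9 18 2 (by norm_num) rfl val_9)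
  have h1 := hg0.mul hN
  rw [hc] at h1
  have h2 := h.2
  have h3 := h1.2
  have h4 := one_le_val hq hd
  omega

theorem row_E8 (h3 : (3 : F) ≠ 0) : Row ↥(chevE8.group F) := by
  intro hV
  exfalso
  have hv := val_of_Vn hV
  have hq : 1 < Fintype.card F := Fintype.one_lt_card
  have hd := not_dvd_card h3
  rw [Cfsg.Agent.S1065.result (F := F) rfl] at hv
  have h := ((((((((hv_pow hq hd 120).mul (hv_even hq hd 1 2 0 one_ne_zero rfl val_1)).mul
    (hv_even hq hd 4 8 0 (by norm_num) rfl val_4)).mul (hv_even hq hd 6 12 1 (by norm_num) rfl val_6)).mul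
    (hv_even hq hd 7 14 0 (by norm_num) rfl val_7)).mul (hv_even hq hd 9 18 2 (by norm_num) rfl val_9)).mul
    (hv_even hq hd 10 20 0 (by norm_num) rfl val_10)).mul (hv_even hq hd 12 24 1 (by norm_num) rfl val_12)).mul
    (hv_even hq hd 15 30 1 (by norm_num) rfl val_15)
  have h2 := h.2
  have h4 := one_le_val hq hd
  omega

/-- the order of the fixed field is prime to 3 -/
theorem not_dvd_of_card {q n : ℕ} (hF : Fintype.card F = q ^ n) (hn : n ≠ 0) (h3 : (3 : F) ≠ 0) : ¬ 3 ∣ q := by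
  intro h
  apply not_dvd_card h3
  rw [hF]
  exact dvd_pow h hn

end Groups

section TwE6

open Cfsg.Agent.ChevalleyStructure Cfsg.Agent.ChevalleyStructure.Elts Cfsg.Agent.H92.ExcSL2
open Cfsg.Agent.H680.CritGExc

theorem big_twE6 {K : Type*} [Field K] [Fintype K] {q : ℕ} (hq : IsPrimePow q) (hK : Fintype.card K = q ^ 2)
    (h3 : (3 : K) ≠ 0) (hm : 3 ^ 2 ∣ q ^ 2 - 1) : Big ↥(twistedE6 K q) := by
  obtain ⟨φ, hφ, hqq⟩ := TwE6Basic.exists_frob hq hK
  obtain ⟨p, n, hp, hn, hqp⟩ := (isPrimePow_nat_iff q).1 hq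
  obtain ⟨P, _, _, c, hP, -, -, -⟩ := Cfsg.Agent.ONan.PairCoord.exists_subfield (F := K) hp hn hqp.symm hK
  have hcc : ∀ t, φ (c t) = c t := by
    intro t
    rw [hφ, ← map_pow, ← hP, FiniteField.pow_card]
  have hP3 : (3 : P) ≠ 0 := by
    intro h
    apply h3
    have h1 := congrArg c h
    rw [map_zero, map_ofNat] at h1
    exact h1
  refine big_of_homs (F := P) hP3 (by rw [Nat.card_eq_fintype_card, hP]; exact hm) (n := 4) (by norm_num) (fun i =>
    ((SL2Hom.phi (SL2All.good_of_mem chevE6 Nodes.RGDTwE6.hp.inList _ (four_lt i)) K).comp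
      (Matrix.SpecialLinearGroup.map c)).codRestrict (twistedE6 K q) (fun g => phi_mem hφ hqq c hcc (four_lt i)
        (four_cl i) (four_dl i) (four_neg_lt i) (four_neg_cl i) (four_neg_dl i) g)) ?_ ?_
  · intro i g h
    have h1 := congrArg Subtype.val h
    change SL2Hom.phi (SL2All.good_of_mem chevE6 Nodes.RGDTwE6.hp.inList _ (four_lt i)) K
      (Matrix.SpecialLinearGroup.map c g) = 1 at h1
    have h2 : ph Nodes.RGDTwE6.hp.inList (four_lt i) (Matrix.SpecialLinearGroup.map c g) = 1 := Subtype.ext h1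
    have hinj : Function.Injective (Matrix.SpecialLinearGroup.map (n := Fin 2) c) := by
      intro a b hab
      apply Subtype.ext
      ext i j
      have := congrFun (congrFun (congrArg Subtype.val hab) i) j
      exact c.injective this
    rcases ph_eq_one Nodes.RGDTwE6.hp.inList (four_lt i) h2 with h | h
    · left
      apply hinj
      rw [h, map_one]
    · right
      apply hinj
      rw [h]
      apply Subtype.ext
      ext i j
      fin_cases i <;> fin_cases j <;> simp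
  · intro i j hij a b
    apply Subtype.ext
    exact (phi_commute Nodes.RGDTwE6.hp.inList (four_lt i) (four_lt j) (four_orth i j hij) _ _).eq

theorem row_twE6 {K : Type*} [Field K] [Fintype K] {q : ℕ} (hq : IsPrimePow q) (hK : Fintype.card K = q ^ 2)
    (h3 : (3 : K) ≠ 0) : Row ↥(twistedE6 K q) := by
  intro hV
  have hv := val_of_Vn hV
  have hq1 : 1 < q := hq.one_lt
  have hd := not_dvd_of_card hK two_ne_zero h3
  have hN : HV (Nat.card ↥(twistedE6 K q)) 10 := ⟨Nat.card_pos.ne', hv⟩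
  have hc := Cfsg.Agent.S1066.result hq hK
  have hm : q % 3 = 1 ∨ q % 3 = 2 := by omega
  rcases hm with hm | hm
  · rw [gcd_three, if_neg (by omega), one_mul] at hc
    have h1 := hN
    have h := ((((((hv_pow hq1 hd 36).mul (hv_even hq1 hd 1 2 0 one_ne_zero rfl val_1)).mul
      (⟨by omega, val_add_zero hm _⟩ : HV (q ^ 5 + 1) 0)).mul
      (hv_even hq1 hd 3 6 1 (by norm_num) rfl val_3)).mul (hv_even hq1 hd 4 8 0 (by norm_num) rfl val_4)).mul
      (⟨by omega, val_add_zero hm _⟩ : HV (q ^ 9 + 1) 0)).mul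
      (hv_even hq1 hd 6 12 1 (by norm_num) rfl val_6)
    rw [hc] at h1
    have h2 := h.2
    have h3' := h1.2
    exact big_twE6 hq hK h3 (dvd_of_val hq1 (by omega))
  · exfalso
    rw [gcd_three, if_pos (by omega)] at hc
    have h1 : HV (3 * Nat.card ↥(twistedE6 K q)) (1 + 10) := HV.mul ⟨by norm_num, val_3⟩ hN
    have h := ((((((hv_pow hq1 hd 36).mul (hv_even hq1 hd 1 2 0 one_ne_zero rfl val_1)).mul
      (⟨by omega, by rw [val_two hq1 hm (by decide), val_5]⟩ : HV (q ^ 5 + 1) (padicValNat 3 (q ^ 2 - 1) + 0))).mul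
      (hv_even hq1 hd 3 6 1 (by norm_num) rfl val_3)).mul (hv_even hq1 hd 4 8 0 (by norm_num) rfl val_4)).mul
      (⟨by omega, by rw [val_two hq1 hm (by decide), val_9]⟩ : HV (q ^ 9 + 1) (padicValNat 3 (q ^ 2 - 1) + 2))).mul
      (hv_even hq1 hd 6 12 1 (by norm_num) rfl val_6)
    rw [hc] at h1
    have h2 := h.2
    have h3' := h1.2
    omega

end TwE6

/-! ### `³D₄(q)`, `Sz(q)`, `²F₄(q)` -/

theorem row_twD4 {K : Type*} [Field K] [Fintype K] {q : ℕ} (hq : IsPrimePow q) (hK : Fintype.card K = q ^ 3)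
    (h3 : (3 : K) ≠ 0) : Row ↥(twistedD4 K q) := by
  intro hV
  have hv := val_of_Vn hV
  have hq1 : 1 < q := hq.one_lt
  have hd := not_dvd_of_card hK three_ne_zero h3
  obtain ⟨k, hk⟩ := three_dvd hd
  have h8 : HV (q ^ 8 + q ^ 4 + 1) 1 := by
    have e2 : q ^ 2 = 3 * k + 1 := by
      have := Nat.one_lt_pow two_ne_zero hq1
      omega
    have e8 : q ^ 8 + q ^ 4 + 1 = 3 * (3 * (9 * k ^ 4 + 12 * k ^ 3 + 7 * k ^ 2 + 2 * k) + 1) := by
      have h1 : q ^ 8 + q ^ 4 + 1 = (3 * k + 1) ^ 4 + (3 * k + 1) ^ 2 + 1 := by rw [← e2]; ring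
      rw [h1]; ring
    rw [e8]
    exact HV.mul (k := 1) (l := 0) ⟨by norm_num, val_3⟩ ⟨by omega, padicValNat.eq_zero_of_not_dvd (by omega)⟩
  have h := (((hv_pow hq1 hd 12).mul (hv_even hq1 hd 1 2 0 one_ne_zero rfl val_1)).mul
    (hv_even hq1 hd 3 6 1 (by norm_num) rfl val_3)).mul h8
  rw [Cfsg.Agent.S1067.result hq hK] at hv
  have h2 := h.2
  obtain ⟨φ, hφ⟩ := Cfsg.Agent.ChevalleyStructure.D4Fixed.exists_frob hq hK
  have h6 := (hv_even hq1 hd 3 6 1 (by norm_num) rfl val_3)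
  obtain ⟨A, -, -, a, -, ho⟩ := Cfsg.Agent.H356.SLTorus.exists_one (n := 4) h3
    (by
      rw [Nat.card_eq_fintype_card, hK, ← pow_mul]
      exact (padicValNat_dvd_iff_le h6.1).2 (by rw [h6.2]; omega))
    (MonoidHom.id ↥(twistedD4 K q)) (by
      rw [MonoidHom.ker_id]
      exact bot_le)
    ((Cit.HexD4.pb0 φ).codRestrict (twistedD4 K q) (Cit.HexD4.pb0_mem hφ)) (by
      intro g h e
      exact Cfsg.Agent.H680.CritD4.pb0_injective φ (congrArg Subtype.val e))
  exact Or.inr ⟨a, ho⟩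

theorem row_Sz {F : Type*} [Field F] [Fintype F] {m : ℕ} (hm : 1 ≤ m) (hK : Fintype.card F = 2 ^ (2 * m + 1)) :
    Row ↥(Lie.Sz F (2 ^ (m + 1))) := by
  intro hV
  exfalso
  have h1 := (Cfsg.Agent.S1163.result hm hK).1
  obtain ⟨j, hj⟩ := Cfsg.Agent.H680.CritExc.two_pow_odd m
  rw [hj] at h1
  refine Cfsg.Agent.H680.CritExc.sz_num j ?_
  rw [← h1]
  exact (by norm_num : 3 ∣ 3 ^ 10).trans hV.1

theorem row_twF4 {F : Type*} [Field F] [Fintype F] {m : ℕ} (hK : Fintype.card F = 2 ^ (2 * m + 1)) :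
    Row ↥(twistedF4 F (2 ^ m)) := by
  intro hV
  exfalso
  have hv := val_of_Vn hV
  obtain ⟨j, hj⟩ := Cfsg.Agent.H680.CritExc.two_pow_odd m
  rw [Cfsg.Agent.S1068.result hK] at hv
  have hq1 : 1 < 2 ^ (2 * m + 1) := Nat.one_lt_pow (by omega) (by norm_num)
  generalize 2 ^ (2 * m + 1) = q at *
  have hd : ¬ 3 ∣ q := by omega
  have hm : q % 3 = 2 := by omega
  have h := ((((hv_pow hq1 hd 12).mul (⟨by omega, padicValNat.eq_zero_of_not_dvd (by omega)⟩ : HV (q - 1) 0)).mul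
    (⟨by omega, by rw [val_two hq1 hm (by decide), val_3]⟩ : HV (q ^ 3 + 1) (padicValNat 3 (q ^ 2 - 1) + 1))).mul
    (hv_even hq1 hd 2 4 0 (by norm_num) rfl val_2)).mul
    (⟨by omega, by
      apply padicValNat.eq_zero_of_not_dvd
      have : q ^ 6 % 3 = 1 := by
        rw [Nat.pow_mod, hm]
      omega⟩ : HV (q ^ 6 + 1) 0)
  have h2 := h.2
  omega

/-! ### all -/

open Cfsg.Agent.OrdDiv in
theorem row_exc {K : Type u} [Group K] [Finite K] {q : ℕ} (h3 : ¬ 3 ∣ q)
    (h : Real (.g2 q) K ∨ Real (.f4 q) K ∨ Real (.e6 q) K ∨ Real (.e7 q) K ∨ Real (.e8 q) K ∨ Real (.te6 q) K ∨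
      Real (.td4 q) K ∨ Real (.sz q) K ∨ Real (.tf4 q) K) : Row K := by
  have key : ∀ {F : Type} [Field F] [Fintype F] {n : ℕ}, Fintype.card F = q ^ n → (3 : F) ≠ 0 :=
    fun {F} _ _ {n} hF => Cfsg.Agent.H680.CritGExc.three_ne hF h3
  have key1 : ∀ {F : Type} [Field F] [Fintype F], Fintype.card F = q → (3 : F) ≠ 0 :=
    fun {F} _ _ hF => key (n := 1) (by rw [pow_one]; exact hF)
  have hpp : ∀ {F : Type} [Field F] [Fintype F] {n : ℕ}, n ≠ 0 → Fintype.card F = q ^ n → IsPrimePow q := by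
    intro F _ _ n hn hF
    have h := FiniteField.isPrimePow_card F
    rw [hF] at h
    exact (isPrimePow_pow_iff hn).1 h
  rcases h with h | h | h | h | h | h | h | h | h
  · obtain ⟨F, _, _, hF, ⟨e⟩⟩ := h
    exact (row_G2 (key1 hF)).congr e.symm
  · obtain ⟨F, _, _, hF, ⟨e⟩⟩ := h
    exact (row_F4 (key1 hF)).congr e.symm
  · obtain ⟨F, _, _, hF, ⟨e⟩⟩ := h
    exact (row_E6 (key1 hF)).congr e.symm
  · obtain ⟨F, _, _, hF, ⟨e⟩⟩ := h
    exact (row_E7 (key1 hF)).congr e.symm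
  · obtain ⟨F, _, _, hF, ⟨e⟩⟩ := h
    exact (row_E8 (key1 hF)).congr e.symm
  · obtain ⟨F, _, _, hF, ⟨e⟩⟩ := h
    exact (row_twE6 (hpp two_ne_zero hF) hF (key hF)).congr e.symm
  · obtain ⟨F, _, _, hF, ⟨e⟩⟩ := h
    exact (row_twD4 (hpp three_ne_zero hF) hF (key hF)).congr e.symm
  · obtain ⟨F, _, _, m, hm, hF, hq, ⟨e⟩⟩ := h
    exact (row_Sz hm (hF.trans hq)).congr e.symm
  · obtain ⟨F, _, _, m, hm, hF, hq, ⟨e⟩⟩ := h
    exact (row_twF4 (hF.trans hq)).congr e.symm

end Cfsg.Agent.H984.ThreeExc
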